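import Cfsg.Agent.H691.L34.Def

/-!
# Hermitian `3 × 3` matrices over the field with four elements (helper204)

Hermitian matrices of the same rank are congruent under `SL₃(4)`.
-/

set_option autoImplicit false

namespace Cfsg.Agent.H204.L34

open Cfsg.Agent.H691.L34 Matrix

section
variable {F : Type} [Field F]

/-- congruence under `SL₃` -/
def Cg (X Y : M3 F) : Prop := ∃ g : G3 F, hact g X = Y

theorem ct_mul (h2 : (2 : F) = 0) (A B : M3 F) : ct (A * B) = ct B * ct A := by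
  ext i j
  simp only [ct, Matrix.transpose_apply, Matrix.map_apply, Matrix.mul_apply, Fin.sum_univ_three]
  linear_combination (A j 0 * B 0 i * (A j 1 * B 1 i) + A j 0 * B 0 i * (A j 2 * B 2 i) +
    A j 1 * B 1 i * (A j 2 * B 2 i)) * h2

theorem ct_one : ct (1 : M3 F) = 1 := by
  ext i j
  simp only [ct, Matrix.transpose_apply, Matrix.map_apply, Matrix.one_apply]
  by_cases h : i = j
  · subst h; simp
  · rw [if_neg h, if_neg (fun e => h e.symm)]; simp

theorem hact_mul (h2 : (2 : F) = 0) (g h : G3 F) (X : M3 F) : hact (g * h) X = hact g (hact h X) := by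
  have e : (g * h).1 = g.1 * h.1 := rfl
  have e' : hact (g * h) X = (g.1 * h.1) * X * ct (g.1 * h.1) := rfl
  rw [e', ct_mul h2]
  simp only [hact, Matrix.mul_assoc]

theorem hact_one (X : M3 F) : hact (1 : G3 F) X = X := by
  have e' : hact (1 : G3 F) X = (1 : M3 F) * X * ct (1 : M3 F) := rfl
  rw [e', ct_one, Matrix.one_mul, Matrix.mul_one]

theorem Cg.trans (h2 : (2 : F) = 0) {X Y Z : M3 F} (h : Cg X Y) (h' : Cg Y Z) : Cg X Z := by
  obtain ⟨g, rfl⟩ := h
  obtain ⟨k, rfl⟩ := h'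
  exact ⟨k * g, hact_mul h2 k g X⟩

theorem Cg.symm (h2 : (2 : F) = 0) {X Y : M3 F} (h : Cg X Y) : Cg Y X := by
  obtain ⟨g, rfl⟩ := h
  exact ⟨g⁻¹, by rw [← hact_mul h2, inv_mul_cancel, hact_one]⟩

theorem rank_hact (h2 : (2 : F) = 0) (g : G3 F) (X : M3 F) : (hact g X).rank = X.rank := by
  have hg : IsUnit (g : M3 F).det := by rw [g.2]; exact isUnit_one
  have hc : IsUnit (ct (g : M3 F)).det := by
    have e0 : (g⁻¹ : G3 F).1 * g.1 = 1 := congrArg Subtype.val (inv_mul_cancel g)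
    have e : ct (g.1) * ct ((g⁻¹ : G3 F).1) = 1 := by
      rw [← ct_mul h2, e0, ct_one]
    have e' := congrArg Matrix.det e
    rw [Matrix.det_mul, Matrix.det_one] at e'
    exact IsUnit.of_mul_eq_one _ e'
  unfold hact
  rw [Matrix.rank_mul_eq_left_of_isUnit_det _ _ hc, Matrix.rank_mul_eq_right_of_isUnit_det _ _ hg]

theorem HF_apply {X : M3 F} (h : HF X) (i j : Fin 3) : (X j i) ^ 2 = X i j := congrFun (congrFun h i) j

theorem hact_HF (h2 : (2 : F) = 0) (h4 : ∀ x : F, x ^ 4 = x) {X : M3 F} (h : HF X) (g : G3 F) : HF (hact g X) := by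
  have hcc : ∀ A : M3 F, ct (ct A) = A := fun A => by
    ext i j
    show ((A i j) ^ 2) ^ 2 = A i j
    rw [← pow_mul]; exact h4 _
  unfold HF hact
  rw [ct_mul h2, ct_mul h2, hcc, h, Matrix.mul_assoc]

theorem hact_apply (g : G3 F) (X : M3 F) (i j : Fin 3) : hact g X i j =
    (g.1 i 0 * X 0 0 + g.1 i 1 * X 1 0 + g.1 i 2 * X 2 0) * (g.1 j 0) ^ 2 +
    (g.1 i 0 * X 0 1 + g.1 i 1 * X 1 1 + g.1 i 2 * X 2 1) * (g.1 j 1) ^ 2 +
    (g.1 i 0 * X 0 2 + g.1 i 1 * X 1 2 + g.1 i 2 * X 2 2) * (g.1 j 2) ^ 2 := by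
  simp only [hact, ct, Matrix.mul_apply, Matrix.transpose_apply, Matrix.map_apply, Fin.sum_univ_three]

/-- the value of the hermitian form at a row vector -/
def q (X : M3 F) (a b c : F) : F :=
    (a * X 0 0 + b * X 1 0 + c * X 2 0) * a ^ 2 + (a * X 0 1 + b * X 1 1 + c * X 2 1) * b ^ 2 +
    (a * X 0 2 + b * X 1 2 + c * X 2 2) * c ^ 2

/-- every nonzero row vector is the first row of a matrix of determinant 1 -/
theorem exists_row (h2 : (2 : F) = 0) (a b c : F) (h : ¬ (a = 0 ∧ b = 0 ∧ c = 0)) :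
    ∃ g : G3 F, g.1 0 0 = a ∧ g.1 0 1 = b ∧ g.1 0 2 = c := by
  have hneg : (-1 : F) = 1 := by linear_combination (-1 : F) * h2
  by_cases ha : a = 0
  · by_cases hb : b = 0
    · have hc : c ≠ 0 := fun hc => h ⟨ha, hb, hc⟩
      refine ⟨⟨!![a, b, c; c⁻¹, 0, 0; 0, 1, 0], ?_⟩, rfl, rfl, rfl⟩
      rw [Matrix.det_fin_three]
      simp [hc]
    · refine ⟨⟨!![a, b, c; b⁻¹, 0, 0; 0, 0, 1], ?_⟩, rfl, rfl, rfl⟩
      rw [Matrix.det_fin_three]
      simp [hb, hneg]
  · refine ⟨⟨!![a, b, c; 0, a⁻¹, 0; 0, 0, 1], ?_⟩, rfl, rfl, rfl⟩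
    rw [Matrix.det_fin_three]
    simp [ha]

/-- the trace form is non-degenerate -/
theorem exists_tr [Fintype F] (hF : Fintype.card F = 4) (h2 : (2 : F) = 0) (x : F) (hx : x ≠ 0) :
    ∃ t : F, t * x + t ^ 2 * x ^ 2 ≠ 0 := by
  by_contra hcon
  push Not at hcon
  have h01 : ∀ y : F, y = 0 ∨ y = 1 := fun y => by
    have h := hcon (y * x⁻¹)
    have e : y * (y - 1) = 0 := by
      have e1 : y * x⁻¹ * x = y := by rw [mul_assoc, inv_mul_cancel₀ hx, mul_one]
      have e2 : (y * x⁻¹) ^ 2 * x ^ 2 = y ^ 2 := by rw [← mul_pow, e1]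
      rw [e1, e2] at h
      linear_combination h - y * h2
    rcases mul_eq_zero.1 e with h | h
    · exact Or.inl h
    · exact Or.inr (sub_eq_zero.1 h)
  have : Fintype.card F ≤ 2 := by
    classical
    have hsub : (Finset.univ : Finset F) ⊆ {0, 1} := fun y _ => by
      rcases h01 y with h | h <;> simp [h]
    calc Fintype.card F = (Finset.univ : Finset F).card := rfl
      _ ≤ ({0, 1} : Finset F).card := Finset.card_le_card hsub
      _ ≤ 2 := Finset.card_le_two
  omega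

/-- a nonzero hermitian matrix represents `1` -/
theorem exists_corner [Fintype F] (hF : Fintype.card F = 4) (h2 : (2 : F) = 0) (h4 : ∀ x : F, x ^ 4 = x) {X : M3 F}
    (hX : HF X) (h0 : X ≠ 0) : ∃ g : G3 F, hact g X 0 0 = 1 := by
  have key : ∃ a b c : F, q X a b c ≠ 0 := by
    by_contra hcon
    push Not at hcon
    have d0 : X 0 0 = 0 := by simpa [q] using hcon 1 0 0
    have d1 : X 1 1 = 0 := by simpa [q] using hcon 0 1 0
    have d2 : X 2 2 = 0 := by simpa [q] using hcon 0 0 1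
    have e01 : X 1 0 = 0 := by
      by_contra hx
      obtain ⟨t, ht⟩ := exists_tr hF h2 _ hx
      refine ht ?_
      have := hcon 1 t 0
      have e := HF_apply hX 0 1
      simp only [q, d0, d1] at this
      linear_combination this + t ^ 2 * e
    have e02 : X 2 0 = 0 := by
      by_contra hx
      obtain ⟨t, ht⟩ := exists_tr hF h2 _ hx
      refine ht ?_
      have := hcon 1 0 t
      have e := HF_apply hX 0 2
      simp only [q, d0, d2] at this
      linear_combination this + t ^ 2 * e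
    have e12 : X 2 1 = 0 := by
      by_contra hx
      obtain ⟨t, ht⟩ := exists_tr hF h2 _ hx
      refine ht ?_
      have := hcon 0 1 t
      have e := HF_apply hX 1 2
      simp only [q, d1, d2] at this
      linear_combination this + t ^ 2 * e
    have f01 := HF_apply hX 0 1
    have f02 := HF_apply hX 0 2
    have f12 := HF_apply hX 1 2
    rw [e01, zero_pow two_ne_zero] at f01
    rw [e02, zero_pow two_ne_zero] at f02
    rw [e12, zero_pow two_ne_zero] at f12
    apply h0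
    ext i j
    fin_cases i <;> fin_cases j
    · exact d0
    · exact f01.symm
    · exact f02.symm
    · exact e01
    · exact d1
    · exact f12.symm
    · exact e02
    · exact e12
    · exact d2
  obtain ⟨a, b, c, hq⟩ := key
  have hne : ¬ (a = 0 ∧ b = 0 ∧ c = 0) := by
    rintro ⟨rfl, rfl, rfl⟩
    exact hq (by simp [q])
  obtain ⟨g, ha, hb, hc⟩ := exists_row h2 a b c hne
  refine ⟨g, ?_⟩
  have e1 : hact g X 0 0 = q X a b c := by
    rw [hact_apply, ha, hb, hc]; rfl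
  have e2 : (hact g X 0 0) ^ 2 = hact g X 0 0 := HF_apply (hact_HF h2 h4 hX g) 0 0
  have e3 : hact g X 0 0 * (hact g X 0 0 - 1) = 0 := by linear_combination e2
  rcases mul_eq_zero.1 e3 with h | h
  · exact absurd (e1 ▸ h) hq
  · exact sub_eq_zero.1 h

/-- the block form with a corner 1 -/
def blk (b c z : F) : M3 F := !![1, 0, 0; 0, b, z; 0, z ^ 2, c]

theorem clear (h2 : (2 : F) = 0) (h4 : ∀ x : F, x ^ 4 = x) {X : M3 F} (hX : HF X) (h1 : X 0 0 = 1) :
    ∃ b c z : F, b ^ 2 = b ∧ c ^ 2 = c ∧ Cg X (blk b c z) := by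
  have f01 := HF_apply hX 0 1
  have f02 := HF_apply hX 0 2
  have f12 := HF_apply hX 1 2
  have f10 := HF_apply hX 1 0
  have f20 := HF_apply hX 2 0
  have f21 := HF_apply hX 2 1
  have f11 := HF_apply hX 1 1
  have f22 := HF_apply hX 2 2
  let g : G3 F := ⟨!![1, 0, 0; X 1 0, 1, 0; X 2 0, 0, 1], by rw [Matrix.det_fin_three]; simp⟩
  have hY := hact_HF h2 h4 hX g
  have g00 : g.1 0 0 = 1 := rfl
  have g01 : g.1 0 1 = 0 := rfl
  have g02 : g.1 0 2 = 0 := rfl
  have g10 : g.1 1 0 = X 1 0 := rfl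
  have g11 : g.1 1 1 = 1 := rfl
  have g12 : g.1 1 2 = 0 := rfl
  have g20 : g.1 2 0 = X 2 0 := rfl
  have g21 : g.1 2 1 = 0 := rfl
  have g22 : g.1 2 2 = 1 := rfl
  refine ⟨hact g X 1 1, hact g X 2 2, hact g X 1 2, HF_apply hY 1 1, HF_apply hY 2 2, g, ?_⟩
  have y00 : hact g X 0 0 = 1 := by
    rw [hact_apply, g00, g01, g02, h1]; ring
  have y10 : hact g X 1 0 = 0 := by
    rw [hact_apply, g00, g01, g02, g10, g11, g12, h1]
    linear_combination X 1 0 * h2
  have y20 : hact g X 2 0 = 0 := by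
    rw [hact_apply, g00, g01, g02, g20, g21, g22, h1]
    linear_combination X 2 0 * h2
  have y01 : hact g X 0 1 = 0 := by rw [← HF_apply hY 0 1, y10, zero_pow two_ne_zero]
  have y02 : hact g X 0 2 = 0 := by rw [← HF_apply hY 0 2, y20, zero_pow two_ne_zero]
  have y21 : hact g X 2 1 = (hact g X 1 2) ^ 2 := (HF_apply hY 2 1).symm
  ext i j
  fin_cases i <;> fin_cases j <;> first | exact y00 | exact y10 | exact y20 | exact y01 | exact y02 | exact y21 | rfl

theorem blk_one (h2 : (2 : F) = 0) (h4 : ∀ x : F, x ^ 4 = x) (c z : F) (hc : c ^ 2 = c) :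
    ∃ d : F, d ^ 2 = d ∧ Cg (blk 1 c z) (blk 1 d 0) := by
  have hz := h4 z
  refine ⟨c + z ^ 3, ?_, (⟨!![1, 0, 0; 0, 1, 0; 0, z ^ 2, 1], by rw [Matrix.det_fin_three]; simp⟩ : G3 F), ?_⟩
  · linear_combination hc + c * z ^ 3 * h2 + z ^ 2 * hz
  · ext i j
    refine (hact_apply _ _ i j).trans ?_
    fin_cases i <;> fin_cases j <;> simp [blk]
    · linear_combination hz + z * h2
    · linear_combination z ^ 2 * h2
    · linear_combination z ^ 6 * h2

theorem blk_swap (h2 : (2 : F) = 0) (h4 : ∀ x : F, x ^ 4 = x) (c z : F) : Cg (blk 0 c z) (blk c 0 (z ^ 2)) := by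
  have hneg : (-1 : F) = 1 := by linear_combination (-1 : F) * h2
  refine ⟨(⟨!![1, 0, 0; 0, 0, 1; 0, 1, 0], by rw [Matrix.det_fin_three]; simp [hneg]⟩ : G3 F), ?_⟩
  ext i j
  refine (hact_apply _ _ i j).trans ?_
  fin_cases i <;> fin_cases j <;> simp [blk]
  linear_combination - h4 z

theorem blk_tr (h2 : (2 : F) = 0) (h4 : ∀ x : F, x ^ 4 = x) (z t : F) (h1 : t * z ^ 2 + t ^ 2 * z = 1) :
    Cg (blk 0 0 z) (blk 1 0 z) := by
  refine ⟨(⟨!![1, 0, 0; 0, 1, t; 0, 0, 1], by rw [Matrix.det_fin_three]; simp⟩ : G3 F), ?_⟩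
  ext i j
  refine (hact_apply _ _ i j).trans ?_
  fin_cases i <;> fin_cases j <;> simp [blk]
  linear_combination h1

/-- the canonical forms -/
def D (F : Type) [Field F] (n : ℕ) : M3 F := Matrix.diagonal fun i : Fin 3 => if i.1 < n then 1 else 0

theorem rank_D (n : ℕ) (hn : n ≤ 3) : (D F n).rank = n := by
  classical
  unfold D
  rw [Matrix.rank_diagonal]
  have : ∀ i : Fin 3, ((if i.1 < n then (1 : F) else 0) ≠ 0 ↔ i.1 < n) := fun i => by
    split_ifs with h <;> simp [h]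
  rw [Fintype.card_congr (Equiv.subtypeEquivRight this)]
  interval_cases n <;> rfl

theorem blk_canon [Fintype F] (hF : Fintype.card F = 4) (h2 : (2 : F) = 0) (h4 : ∀ x : F, x ^ 4 = x) (b c z : F)
    (hb : b ^ 2 = b) (hc : c ^ 2 = c) : Cg (blk b c z) (D F 1) ∨ Cg (blk b c z) (D F 2) ∨ Cg (blk b c z) (D F 3) := by
  have h01 : ∀ y : F, y ^ 2 = y → y = 0 ∨ y = 1 := fun y h => by
    have e3 : y * (y - 1) = 0 := by linear_combination h
    rcases mul_eq_zero.1 e3 with h | h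
    · exact Or.inl h
    · exact Or.inr (sub_eq_zero.1 h)
  have hD1 : blk 0 0 0 = D F 1 := by
    ext i j; fin_cases i <;> fin_cases j <;> simp [blk, D]
  have hD2 : blk 1 0 0 = D F 2 := by
    ext i j; fin_cases i <;> fin_cases j <;> simp [blk, D]
  have hD3 : blk 1 1 0 = D F 3 := by
    ext i j; fin_cases i <;> fin_cases j <;> simp [blk, D]
  have one : ∀ c z : F, c ^ 2 = c → Cg (blk 1 c z) (D F 2) ∨ Cg (blk 1 c z) (D F 3) := fun c z hc => by
    obtain ⟨d, hd, h⟩ := blk_one h2 h4 c z hc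
    rcases h01 d hd with rfl | rfl
    · rw [hD2] at h; exact Or.inl h
    · rw [hD3] at h; exact Or.inr h
  rcases h01 b hb with rfl | rfl
  · rcases h01 c hc with rfl | rfl
    · by_cases hz : z = 0
      · subst hz
        exact Or.inl ⟨1, by rw [hact_one, hD1]⟩
      · obtain ⟨t, ht⟩ := exists_tr hF h2 (z ^ 2) (pow_ne_zero 2 hz)
        have e : (t * z ^ 2 + t ^ 2 * z) ^ 2 = t * z ^ 2 + t ^ 2 * z := by
          linear_combination t ^ 3 * z ^ 3 * h2 + t ^ 2 * h4 z + z ^ 2 * h4 t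
        have e' : t * z ^ 2 + t ^ 2 * (z ^ 2) ^ 2 = t * z ^ 2 + t ^ 2 * z := by
          linear_combination t ^ 2 * h4 z
        rw [e'] at ht
        have h1 := (h01 _ e).resolve_left ht
        have hb := blk_tr h2 h4 z t h1
        rcases one 0 z (by simp) with h | h
        · exact Or.inr (Or.inl (hb.trans h2 h))
        · exact Or.inr (Or.inr (hb.trans h2 h))
    · have hb := blk_swap h2 h4 1 z
      rcases one 0 (z ^ 2) (by simp) with h | h
      · exact Or.inr (Or.inl (hb.trans h2 h))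
      · exact Or.inr (Or.inr (hb.trans h2 h))
  · exact Or.inr (one c z hc)

theorem canon [Fintype F] (hF : Fintype.card F = 4) (h2 : (2 : F) = 0) (h4 : ∀ x : F, x ^ 4 = x) {X : M3 F}
    (hX : HF X) : ∃ n ≤ 3, Cg X (D F n) := by
  by_cases h0 : X = 0
  · refine ⟨0, by norm_num, 1, ?_⟩
    rw [hact_one, h0]
    ext i j
    by_cases h : i = j
    · subst h; simp [D]
    · simp [D, h]
  · obtain ⟨g, hg⟩ := exists_corner hF h2 h4 hX h0
    have h1 : Cg X (hact g X) := ⟨g, rfl⟩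
    obtain ⟨b, c, z, hb, hc, h⟩ := clear h2 h4 (hact_HF h2 h4 hX g) hg
    rcases blk_canon hF h2 h4 b c z hb hc with h' | h' | h'
    · exact ⟨1, by norm_num, (h1.trans h2 h).trans h2 h'⟩
    · exact ⟨2, by norm_num, (h1.trans h2 h).trans h2 h'⟩
    · exact ⟨3, le_refl 3, (h1.trans h2 h).trans h2 h'⟩

/-- hermitian matrices of the same rank are congruent under `SL₃(4)` -/
theorem rank_equiv [Fintype F] (hF : Fintype.card F = 4) {X Y : M3 F} (hX : HF X) (hY : HF Y)
    (h : X.rank = Y.rank) : ∃ g : G3 F, hact g X = Y := by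
  have h4 : ∀ x : F, x ^ 4 = x := fun x => by rw [← hF]; exact FiniteField.pow_card x
  have h2 : (2 : F) = 0 := by
    have h := Nat.cast_card_eq_zero F
    rw [hF] at h
    have h' : (2 : F) * 2 = 0 := by
      rw [← h]; norm_num
    exact (mul_self_eq_zero.1 h')
  obtain ⟨n, hn, h1⟩ := canon hF h2 h4 hX
  obtain ⟨m, hm, h1'⟩ := canon hF h2 h4 hY
  have r1 : n = X.rank := by
    obtain ⟨g, e⟩ := h1
    rw [← rank_D (F := F) n hn, ← e, rank_hact h2]
  have r2 : m = Y.rank := by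
    obtain ⟨g, e⟩ := h1'
    rw [← rank_D (F := F) m hm, ← e, rank_hact h2]
  have : n = m := by rw [r1, r2, h]
  subst this
  exact h1.trans h2 (h1'.symm h2)

end

end Cfsg.Agent.H204.L34
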